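import Cfsg.Agent.FC.Hall
import Cfsg.Agent.Comp.FixCnt

/-!
The histogram of the element orders of a small permutation group, and the Frobenius conjecture for it.
-/

set_option autoImplicit false

namespace Cfsg.Agent.FC

open Cfsg.Agent.Comp

section
variable {f g : ℕ → ℕ → ℕ} {v : ℕ → List ℕ} {c : ℕ → ℕ}

theorem fold_sum (hg : ∀ T n, g T n = n + ((v T).map c).sum) (t : ETr) (T n : ℕ) :
    t.fold f g T n = n + ((t.vis f v T).map c).sum := by
  induction t generalizing T n with
  | nil => rfl
  | node a d s ihc ihs =>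
    change (force (f a T) fun T' => force (g T' n) fun n1 => force (d.fold f g T' n1) (s.fold f g T)) = _
    rw [force_eq, force_eq, force_eq, ihs, ihc, hg, ETr.vis, List.map_append, List.map_append,
      List.sum_append, List.sum_append]
    omega

theorem cntC_sum (ts : List ETr) (hg : ∀ T n, g T n = n + ((v T).map c).sum) (T n : ℕ) :
    cntC f ts g T n = n + ((visC f ts v T).map c).sum := by
  induction ts generalizing g v with
  | nil => exact hg T n
  | cons t ts ih =>
    exact ih fun T n => by rw [force_eq, fold_sum hg, hg, List.map_append, List.sum_append, add_assoc]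

end

theorem dig_add {B H a o : ℕ} (hB : 0 < B) (h : a ≤ o → H / B ^ a % B + 1 < B) :
    (B ^ a + H) / B ^ o % B = H / B ^ o % B + if a = o then 1 else 0 := by
  rcases lt_trichotomy a o with h1 | rfl | h1
  · obtain ⟨k, rfl⟩ := Nat.exists_eq_add_of_lt h1
    rw [if_neg h1.ne, add_zero, show B ^ (a + k + 1) = B ^ a * (B * B ^ k) by ring,
      ← Nat.div_div_eq_div_mul, ← Nat.div_div_eq_div_mul H, Nat.add_div_left _ (pow_pos hB a),
      ← Nat.div_div_eq_div_mul, ← Nat.div_div_eq_div_mul (H / B ^ a), Nat.succ_div_of_mod_ne_zero]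
    rw [Nat.add_mod, Nat.mod_eq_of_lt (a := 1) (by have := h h1.le; omega), Nat.mod_eq_of_lt (h h1.le)]
    omega
  · rw [if_pos rfl, Nat.add_div_left _ (pow_pos hB a), Nat.add_mod,
      Nat.mod_eq_of_lt (a := 1) (by have := h le_rfl; omega), Nat.mod_eq_of_lt (h le_rfl)]
  · obtain ⟨k, rfl⟩ := Nat.exists_eq_add_of_lt h1
    rw [if_neg h1.ne', add_zero, show B ^ (o + k + 1) = B ^ o * (B * B ^ k) by ring, add_comm,
      Nat.add_mul_div_left _ _ (pow_pos hB o), Nat.add_mul_mod_self_left]

theorem dig_hist {B M : ℕ} (l : List ℕ) (h : l.length < B) {o : ℕ} (ho : o < M) :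
    (l.map fun a => B ^ M + B ^ a).sum / B ^ o % B = l.count o := by
  induction l generalizing o with
  | nil => simp
  | cons a l ih =>
    rw [List.length_cons] at h
    rw [List.map_cons, List.sum_cons, add_assoc, dig_add (by omega) (by omega), if_neg ho.ne', add_zero,
      dig_add (by omega) fun h1 => by
        rw [ih (by omega) (h1.trans_lt ho)]
        have := List.count_le_length (a := a) (l := l)
        omega, ih (by omega) ho, List.count_cons]
    simp

theorem length_le_hist {B M : ℕ} (hB : 0 < B) (l : List ℕ) :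
    l.length ≤ (l.map fun a => B ^ M + B ^ a).sum / B ^ M := by
  rw [Nat.le_div_iff_mul_le (pow_pos hB M)]
  induction l with
  | nil => simp
  | cons a l ih => rw [List.map_cons, List.sum_cons, List.length_cons, add_mul]; omega

theorem countP_add_le (M : ℕ) (p : ℕ → Prop) [DecidablePred p] (l : List ℕ) :
    l.countP (fun a => ¬ p a) + ∑ o ∈ Finset.range M, (if p o then l.count o else 0) ≤ l.length := by
  induction l with
  | nil => simp
  | cons a l ih =>
    have h1 : ∑ o ∈ Finset.range M, (if p o then (a :: l).count o else 0) =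
        ∑ o ∈ Finset.range M, (if p o then l.count o else 0) +
          ∑ o ∈ Finset.range M, (if a = o then (if p a then 1 else 0) else 0) := by
      rw [← Finset.sum_add_distrib]
      refine Finset.sum_congr rfl fun o _ => ?_
      rw [List.count_cons]
      by_cases h : a = o
      · subst h; by_cases h2 : p a <;> simp [h2]
      · by_cases h2 : p o <;> simp [h, h2]
    rw [h1, Finset.sum_ite_eq, List.countP_cons, List.length_cons]
    clear h1
    by_cases h2 : p a <;> by_cases h3 : a ∈ Finset.range M <;> simp [h2, h3] at ih ⊢ <;> omega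

/-- The check. -/
noncomputable def histB (N w W M : ℕ) (v : Net) (ns : List Net) (ts : List ETr) (bs : List ℕ)
    (L n : ℕ) : Bool :=
  withRL N w fun R I => force (cntC (appL R ns) ts (fun T k =>
    Nat.add k (Nat.add (Nat.pow 65536 L) (Nat.pow 65536 (ordT W M v L bs T)))) I 0) fun H =>
  force (Nat.div H (Nat.pow 65536 L)) fun m => and' (Nat.blt m 65536) (allB n fun d =>
    or' (Nat.blt 0 (Nat.mod n d)) (or' (Nat.beq d 1) (Nat.blt (Nat.add d m) (Nat.add n (sumLT L fun o =>
      ite' (Nat.blt 0 o) (ite' (Nat.beq (Nat.mod d o) 0)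
        (Nat.mod (Nat.div H (Nat.pow 65536 o)) 65536) 0) 0)))))

theorem fp_of_hist {N w W M : ℕ} {v : Net} {ns : List Net} (c : LCtx N w W M v ns) {S : List SD}
    (hS : Exact N ns S) {ts : List ETr} (ht : chkTrees ns S ts = true) {G : Subgroup (Equiv.Perm ℕ)}
    (hG : gen ns (sTop S) = G) {n : ℕ} (hn : Nat.card G = n) {L : ℕ}
    (h : histB N w W M v ns ts (sBase S) L n = true) : FP G := by
  classical
  subst hG
  have hfin := finite_gen c.ok (sTop S)
  rw [histB, withRL_eq c.pos, force_eq, force_eq, cntC_sum (v := fun T => [T])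
    (c := fun T => 65536 ^ L + 65536 ^ ordT W M v L (sBase S) T) ts (fun T k => by simp),
    zero_add] at h
  have h1 := enumC_sound c.ok hS ht (tab_idP (w := w) c.le) (enumC_of (v := fun T => [T])
    (q := fun x => decide (x ∈ _)) ts (fun T h => decide_eq_true (h List.mem_cons_self)) _
    (List.Subset.refl _))
  generalize visC (appL (rep N w) ns) ts (fun T => [T]) (idP N w) = l at h h1
  have e : (l.map fun T => 65536 ^ L + 65536 ^ ordT W M v L (sBase S) T) =
      ((l.map (ordT W M v L (sBase S))).map fun a => 65536 ^ L + 65536 ^ a) := by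
    rw [List.map_map]; rfl
  rw [e] at h
  simp only [and'_eq_true, or'_eq_true, allB_iff, blt_iff, beq_iff, sumLT_eq, ite'_eq] at h
  have h2 := length_le_hist (B := 65536) (M := L) (by norm_num) (l.map (ordT W M v L (sBase S)))
  intro d hd hc
  rw [hn] at hd ⊢
  by_contra! hne
  have h3 := ((h.2 d ((Nat.le_of_dvd (hn ▸ Nat.card_pos) hd).lt_of_ne hne.2)).resolve_left
    (by rw [show Nat.mod n d = 0 from Nat.mod_eq_zero_of_dvd hd]; omega)).resolve_left hne.1
  have h4 := countP_add_le L (fun o => 0 < o ∧ o ∣ d) (l.map (ordT W M v L (sBase S)))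
  rw [Finset.sum_congr rfl (g := fun o => if 0 < o ∧ o ∣ d then
      (l.map (ordT W M v L (sBase S))).count o else 0) fun o ho => by
    rw [← dig_hist _ (h2.trans_lt h.1) (Finset.mem_range.1 ho), ite_and]
    exact if_congr Iff.rfl (if_congr (Nat.dvd_iff_mod_eq_zero ..).symm rfl rfl) rfl] at h3
  choose! φ a b using h1
  have h5 : {x : gen ns (sTop S) | x ^ d ≠ 1}.ncard ≤
      (l.map (ordT W M v L (sBase S))).countP fun o => ¬ (0 < o ∧ o ∣ d) := by
    rw [List.countP_map, List.countP_eq_length_filter]
    refine le_trans ?_ (List.toFinset_card_le _)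
    rw [← Set.ncard_coe_finset]
    refine Set.ncard_le_ncard_of_injOn (fun x => φ x) (fun k hk => ?_) (fun k _ k' _ e => ?_)
      (Finset.finite_toSet _)
    · refine Finset.mem_coe.2 (List.mem_toFinset.2 (List.mem_filter.2 ⟨of_decide_eq_true (b k k.2),
        decide_eq_true fun h6 => hk (orderOf_dvd_iff_pow_eq_one.1 ?_)⟩))
      rw [← Subgroup.orderOf_coe, orderOf_eq_ordT c hS k.2 (one_mul (k : Equiv.Perm ℕ) ▸ a k k.2) h6.1.ne']
      exact h6.2
    · exact Subtype.ext (mul_left_cancel ((a k k.2).unique c.le ((show φ k = φ k' from e) ▸ a k' k'.2)))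
  have h6 := Set.ncard_add_ncard_compl {x : gen ns (sTop S) | x ^ d = 1}
  rw [← Nat.card_coe_set_eq, hn] at h6
  change nsol _ d + {x : gen ns (sTop S) | x ^ d ≠ 1}.ncard = n at h6
  change d + _ / 65536 ^ L < n + _ at h3
  omega

end Cfsg.Agent.FC
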