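import Mathlib
import Cfsg.Agent.FGS.FrobeniusCount
import Cfsg.Agent.Grp.MinNormal

/-!
P. Hall's coset form of Frobenius' theorem, and the reduction of the Frobenius conjecture
(exactly `n` solutions of `x ^ n = 1`) to the composition factors.
-/

set_option autoImplicit false

namespace Cfsg.Agent.FC

open Subgroup MulAction

universe u

variable {G : Type*} [Group G]

/-- The number of solutions of `x ^ n = 1`. -/
noncomputable abbrev nsol (G : Type*) [Group G] (n : ℕ) : ℕ := Nat.card {x : G // x ^ n = 1}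

/-- The strong form of the Frobenius conjecture that holds in simple groups. -/
def FP (G : Type*) [Group G] : Prop :=
  ∀ n, n ∣ Nat.card G → nsol G n = n → n = 1 ∨ n = Nat.card G

theorem nsol_congr {H : Type*} [Group H] (e : G ≃* H) (n : ℕ) : nsol G n = nsol H n :=
  Nat.card_congr (e.toEquiv.subtypeEquiv fun x => by
    rw [MulEquiv.toEquiv_eq_coe, MulEquiv.coe_toEquiv, ← map_pow, map_eq_one_iff _ e.injective])

theorem FP.equiv {H : Type*} [Group H] (h : FP H) (e : G ≃* H) : FP G := fun n hn hc => by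
  rw [Nat.card_congr e.toEquiv] at hn ⊢
  exact h n hn (nsol_congr e n ▸ hc)

theorem brauer [Finite G] {p e : ℕ} (hp : p.Prime) {K : Subgroup G} (hK : Nat.card K ∣ p ^ e) {x : G}
    (hx : ∀ u ∈ K, x⁻¹ * u * x ∈ K) (hc : ∀ u ∈ K, u * x ^ p ^ e = x ^ p ^ e * u) {u : G}
    (hu : u ∈ K) : (x * u) ^ p ^ e = x ^ p ^ e := by
  classical
  have := Fintype.ofFinite K
  let f : K → K := fun a => ⟨x⁻¹ * a * x * u, mul_mem (hx _ a.2) hu⟩
  have h1 : ∀ (k : ℕ) (a : K), (f^[k] a : G) = (x ^ k)⁻¹ * a * (x * u) ^ k := fun k a => by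
    induction k with
    | zero => simp
    | succ k ih =>
      rw [Function.iterate_succ_apply']
      change x⁻¹ * (f^[k] a : G) * x * u = _
      rw [ih, pow_succ, pow_succ]; group
  have h2 : ∀ a : K, f^[p ^ e] a = a * f^[p ^ e] 1 := fun a => Subtype.ext (by
    rw [Subgroup.coe_mul, h1, h1, OneMemClass.coe_one, mul_one, ← mul_assoc]
    congr 1
    rw [inv_mul_eq_iff_eq_mul, ← mul_assoc, ← hc _ a.2, mul_inv_cancel_right])
  have h3 : ∀ m : ℕ, (f^[p ^ e])^[m] 1 = f^[p ^ e] 1 ^ m := fun m => by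
    induction m with
    | zero => simp
    | succ m ih => rw [Function.iterate_succ_apply', ih, h2, pow_succ]
  have h4 : Function.IsPeriodicPt f (p ^ e * p ^ e) 1 := by
    rw [Function.IsPeriodicPt, Function.IsFixedPt, Function.iterate_mul, h3,
      ← orderOf_dvd_iff_pow_eq_one]
    exact (_root_.orderOf_dvd_natCard _).trans hK
  obtain ⟨i, -, hi⟩ := (Nat.dvd_prime_pow hp).1 (pow_add p e e ▸ h4.minimalPeriod_dvd)
  have h5 : p ^ i ≤ p ^ e := by
    rw [← hi]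
    refine Function.minimalPeriod_le_card.trans ?_
    rw [← Nat.card_eq_fintype_card]
    exact Nat.le_of_dvd (pow_pos hp.pos e) hK
  have h6 : Function.IsPeriodicPt f (p ^ e) 1 := Function.isPeriodicPt_iff_minimalPeriod_dvd.2
    (hi ▸ pow_dvd_pow p ((Nat.pow_le_pow_iff_right hp.one_lt).1 h5))
  have h7 := h1 (p ^ e) 1
  rw [h6.eq, OneMemClass.coe_one, mul_one, eq_comm, inv_mul_eq_one] at h7
  exact h7.symm

theorem dvd_card_of_tail {P X T : Type*} [Group P] [Finite P] [Finite X] [MulAction P T] (τ : X → T)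
    (h1 : ∀ (u : P) x, ∃ y, τ y = u • τ x)
    (h2 : ∀ x, Nat.card {y // τ y = τ x} = Nat.card (stabilizer P (τ x))) :
    Nat.card P ∣ Nat.card X := by
  refine FGS.FrobCount.dvd_card_of_fibers (fun x => orbit P (τ x)) fun a => dvd_of_eq ?_
  have : Finite (orbit P (τ a)) := (Set.finite_range _).to_subtype
  have h3 : ∀ t : T, (orbit P t).ncard * Nat.card (stabilizer P t) = Nat.card P := fun t => by
    rw [← index_stabilizer, index_mul_card]
  rw [← h3 (τ a), ← Nat.card_coe_set_eq]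
  refine (FGS.FrobCount.card_eq_mul_of_fibers
    (fun x : {x // orbit P (τ x) = orbit P (τ a)} => (⟨τ x.1, orbit_eq_iff.1 x.2⟩ : orbit P (τ a)))
    fun ⟨t, u, hu⟩ => ?_).symm
  obtain ⟨y, hy⟩ := h1 u a
  have h4 : orbit P (τ y) = orbit P (τ a) := by rw [hy, orbit_smul]
  have h5 := h3 (τ y)
  rw [h4, ← h3 (τ a)] at h5
  have h6 : 0 < (orbit P (τ a)).ncard := (Set.ncard_pos (Set.finite_range _)).2 ⟨_, mem_orbit_self _⟩
  rw [← Nat.eq_of_mul_eq_mul_left h6 h5, ← h2]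
  have ht : t = τ y := hu.symm.trans hy.symm
  subst ht
  exact Nat.card_congr
    { toFun := fun z => ⟨z.1.1, congrArg Subtype.val z.2⟩
      invFun := fun z => ⟨⟨z.1, by rw [z.2, h4]⟩, Subtype.ext z.2⟩
      left_inv := fun _ => rfl
      right_inv := fun _ => rfl }

/-- Tails of elements relative to `P`. -/
def Tl (P : Subgroup G) : Type _ := G × (ℕ → G ⧸ P)

instance (P : Subgroup G) : MulAction P (Tl P) where
  smul u t := ((u : G) * t.1 * (u : G)⁻¹, fun k => (u : G) • t.2 k)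
  one_smul t := Prod.ext (by change ((1 : P) : G) * _ * ((1 : P) : G)⁻¹ = _; simp)
    (funext fun k => by change ((1 : P) : G) • _ = _; simp)
  mul_smul u v t := Prod.ext (by
      change ((u * v : P) : G) * _ * ((u * v : P) : G)⁻¹ = (u : G) * ((v : G) * _ * (v : G)⁻¹) * (u : G)⁻¹
      simp [mul_assoc])
    (funext fun k => by
      change ((u * v : P) : G) • _ = (u : G) • (v : G) • _
      rw [Subgroup.coe_mul, mul_smul])

/-- The tail of `x`. -/
def tl (P : Subgroup G) (q : ℕ) (x : G) : Tl P := (x ^ q, fun k => ((x ^ k : G) : G ⧸ P))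

theorem tl_eq {P : Subgroup G} {q : ℕ} {x y : G} :
    tl P q y = tl P q x ↔ y ^ q = x ^ q ∧ ∀ k : ℕ, (x ^ k)⁻¹ * y ^ k ∈ P :=
  Prod.ext_iff.trans (and_congr Iff.rfl (funext_iff.trans (forall_congr' fun _ =>
    eq_comm.trans QuotientGroup.eq)))

theorem smul_tl {P : Subgroup G} {q : ℕ} (u : P) (x : G) :
    u • tl P q x = tl P q (u * x * (u : G)⁻¹) :=
  Prod.ext conj_pow.symm (funext fun k => by
    change (((u : G) * x ^ k : G) : G ⧸ P) = ((((u : G) * x * (u : G)⁻¹) ^ k : G) : G ⧸ P)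
    rw [conj_pow, QuotientGroup.mk_mul_of_mem _ (inv_mem u.2)])

theorem mem_stab {P : Subgroup G} {q : ℕ} {x u : G} :
    u ∈ (stabilizer P (tl P q x)).map P.subtype ↔
      u * x ^ q = x ^ q * u ∧ ∀ k : ℕ, (x ^ k)⁻¹ * u * x ^ k ∈ P := by
  have h : ∀ v : P, v ∈ stabilizer P (tl P q x) ↔
      v * x ^ q = x ^ q * v ∧ ∀ k : ℕ, (x ^ k)⁻¹ * v * x ^ k ∈ P := fun v => by
    rw [mem_stabilizer_iff, smul_tl, tl_eq, conj_pow, mul_inv_eq_iff_eq_mul]
    refine and_congr Iff.rfl (forall_congr' fun k => ?_)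
    rw [conj_pow, ← mul_assoc, ← mul_assoc, mul_mem_cancel_right (inv_mem v.2)]
  constructor
  · rintro ⟨v, hv, rfl⟩; exact (h v).1 hv
  · intro hu
    exact ⟨⟨u, by simpa using hu.2 0⟩, (h _).2 hu, rfl⟩

theorem pow_dvd_coset [Finite G] {N : Subgroup G} [hN : N.Normal] {p e n : ℕ} (hp : p.Prime)
    (hd : p ^ e ∣ Nat.card N) (hn : p ^ e ∣ n) (c : G ⧸ N) :
    p ^ e ∣ Nat.card {x : G // x ^ n = 1 ∧ (x : G ⧸ N) = c} := by
  have := Fact.mk hp
  obtain ⟨P₀, hP₀⟩ := Sylow.exists_subgroup_card_pow_prime p hd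
  set P := P₀.map N.subtype
  have hP : Nat.card P = p ^ e := by rw [card_subtype, hP₀]
  have hPN : P ≤ N := map_subtype_le _
  obtain ⟨m, rfl⟩ := hn
  refine (dvd_of_eq hP.symm).trans <| dvd_card_of_tail (fun x => tl P (p ^ e) x.1) (fun u x => ⟨⟨u * x.1 * (u : G)⁻¹, ?_, ?_⟩,
    (smul_tl u _).symm⟩) fun ⟨x, hx, hc⟩ => ?_
  · rw [conj_pow, x.2.1]; simp
  · rw [QuotientGroup.mk_mul_of_mem _ (inv_mem (hPN u.2)), QuotientGroup.mk_mul,
      (QuotientGroup.eq_one_iff _).2 (hPN u.2), one_mul]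
    exact x.2.2
  rw [← card_subtype]
  set K := (stabilizer P (tl P (p ^ e) x)).map P.subtype
  have hK : ∀ u ∈ K, x⁻¹ * u * x ∈ K := fun u hu => by
    obtain ⟨h1, h2⟩ := mem_stab.1 hu
    refine mem_stab.2 ⟨?_, fun k => ?_⟩
    · have h3 : Commute x (x ^ p ^ e) := Commute.self_pow x _
      exact ((h3.inv_left.mul_left (show Commute u _ from h1)).mul_left h3).eq
    · have := h2 (k + 1)
      rwa [pow_succ', mul_inv_rev, ← mul_assoc, mul_assoc _ _ u, mul_assoc _ _ x] at this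
  have hKP : K ≤ P := map_subtype_le _
  have hb : ∀ u ∈ K, (x * u) ^ p ^ e = x ^ p ^ e := fun u hu =>
    brauer hp (hP ▸ card_dvd_of_le hKP) hK (fun u hu => (mem_stab.1 hu).1) hu
  have hk : ∀ u ∈ K, ∀ k : ℕ, (x ^ k)⁻¹ * (x * u) ^ k ∈ K := fun u hu k => by
    induction k with
    | zero => simp
    | succ k ih =>
      have := mul_mem (hK _ ih) hu
      rwa [show x⁻¹ * ((x ^ k)⁻¹ * (x * u) ^ k) * x * u = (x ^ (k + 1))⁻¹ * (x * u) ^ (k + 1) by
        rw [pow_succ, pow_succ]; group] at this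
  refine Nat.card_congr
    { toFun := fun y => ⟨x⁻¹ * y.1.1, ?_⟩
      invFun := fun u => ⟨⟨x * u, ?_, ?_⟩, tl_eq.2 ⟨hb _ u.2, fun k => hKP (hk _ u.2 k)⟩⟩
      left_inv := fun y => by ext; simp
      right_inv := fun u => by ext; simp }
  · obtain ⟨h1, h2⟩ := tl_eq.1 y.2
    refine mem_stab.2 ⟨?_, fun k => ?_⟩
    · exact ((Commute.self_pow x _).inv_left.mul_left (h1 ▸ Commute.self_pow y.1.1 _)).eq
    · have := mul_mem (h2 (k + 1)) (inv_mem (h2 k))
      rwa [show (x ^ (k + 1))⁻¹ * y.1.1 ^ (k + 1) * ((x ^ k)⁻¹ * y.1.1 ^ k)⁻¹ =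
        (x ^ k)⁻¹ * (x⁻¹ * y.1.1) * x ^ k by rw [pow_succ', pow_succ']; group] at this
  · rw [pow_mul] at hx ⊢
    rw [hb _ u.2, hx]
  · rw [QuotientGroup.mk_mul_of_mem _ (hPN (hKP u.2)), hc]

/-- P. Hall's theorem. -/
theorem gcd_dvd_coset [Finite G] (N : Subgroup G) [N.Normal] (n : ℕ) (c : G ⧸ N) :
    n.gcd (Nat.card N) ∣ Nat.card {x : G // x ^ n = 1 ∧ (x : G ⧸ N) = c} :=
  (Nat.dvd_iff_prime_pow_dvd_dvd _ _).2 fun _ _ hp h =>
    pow_dvd_coset hp (h.trans (Nat.gcd_dvd_right _ _)) (h.trans (Nat.gcd_dvd_left _ _)) c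

theorem nsol_pos [Finite G] (n : ℕ) : 0 < nsol G n :=
  Nat.card_pos_iff.2 ⟨⟨⟨1, one_pow n⟩⟩, inferInstance⟩

theorem le_nsol [Finite G] {n : ℕ} (h : n ∣ Nat.card G) : n ≤ nsol G n :=
  Nat.le_of_dvd (nsol_pos n) (FGS.FrobCount.dvd_card_pow_eq_one h)

theorem coe_eq_of_card [Finite G] {n : ℕ} (hc : nsol G n = n) {H : Subgroup G}
    (hH : Nat.card H = n) : (H : Set G) = {x : G | x ^ n = 1} := by
  refine Set.eq_of_subset_of_ncard_le (fun x hx => ?_) (le_of_eq ?_)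
  · exact orderOf_dvd_iff_pow_eq_one.1 (hH ▸ H.orderOf_dvd_natCard hx)
  · rw [← Nat.card_coe_set_eq, ← Nat.card_coe_set_eq]; exact hc.trans hH.symm

theorem split [Finite G] (N : Subgroup G) [N.Normal] {d u v : ℕ} (hn : d * u ∣ Nat.card G)
    (hv : Nat.card N = d * v) (huv : u.Coprime v) (hc : nsol G (d * u) = d * u) :
    u ∣ Nat.card (G ⧸ N) ∧ nsol (G ⧸ N) u = u ∧ nsol N d = d := by
  classical
  have hd : 0 < d := Nat.pos_of_mul_pos_right (hv ▸ Nat.card_pos)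
  have hg : (d * u).gcd (Nat.card N) = d := by rw [hv, Nat.gcd_mul_left, huv, mul_one]
  have h1 : u ∣ Nat.card (G ⧸ N) := by
    rw [← Grp.card_quotient_mul_card N, hv, mul_left_comm] at hn
    exact huv.dvd_of_dvd_mul_right (Nat.dvd_of_mul_dvd_mul_left hd hn)
  let S := {z : G ⧸ N // z ^ u = 1}
  have : Fintype S := Fintype.ofFinite S
  let g : S → ℕ := fun z => Nat.card {x : G // x ^ (d * u) = 1 ∧ (x : G ⧸ N) = z.1}
  have h2 : ∀ z, d ≤ g z := fun ⟨z, hz⟩ => by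
    refine Nat.le_of_dvd (Nat.card_pos_iff.2 ⟨?_, inferInstance⟩) (hg ▸ gcd_dvd_coset N _ z)
    obtain ⟨y, rfl⟩ := QuotientGroup.mk_surjective z
    obtain ⟨t, ht1, s, rfl⟩ : ∃ t, t ≡ 1 [MOD u] ∧ v ∣ t := by
      obtain ⟨t, a, b⟩ := Nat.chineseRemainder huv 1 0
      exact ⟨t, a, (Nat.modEq_zero_iff_dvd).1 b⟩
    have h3 : (y ^ u) ^ (d * v) = 1 := orderOf_dvd_iff_pow_eq_one.1
      (hv ▸ N.orderOf_dvd_natCard ((QuotientGroup.eq_one_iff _).1 hz))
    refine ⟨⟨y ^ (v * s), ?_, ?_⟩⟩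
    · rw [← pow_mul, show v * s * (d * u) = u * (d * v) * s by ring, pow_mul, pow_mul, h3, one_pow]
    · rw [QuotientGroup.mk_pow]
      exact (pow_eq_pow_iff_modEq.2 (ht1.of_dvd (orderOf_dvd_of_pow_eq_one hz))).trans (pow_one _)
  have h3 : ∑ z, g z ≤ d * u := by
    rw [← hc, ← Nat.card_sigma]
    refine Nat.card_le_card_of_injective (fun x => ⟨x.2.1, x.2.2.1⟩) ?_
    rintro ⟨⟨z, _⟩, x, _, hx⟩ ⟨⟨w, _⟩, y, _, hy⟩ h
    obtain rfl : x = y := congrArg Subtype.val h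
    obtain rfl : z = w := hx.symm.trans hy
    rfl
  have h4 : nsol N d ≤ g ⟨1, one_pow u⟩ := Nat.card_le_card_of_injective
    (fun x => ⟨x.1.1, by rw [pow_mul, ← Subgroup.coe_pow, x.2]; simp,
      (QuotientGroup.eq_one_iff _).2 x.1.2⟩)
    fun x y h => Subtype.ext (Subtype.ext (by simpa using h))
  have h5 := le_nsol h1
  have h6 : d ≤ nsol N d := le_nsol ⟨v, hv⟩
  have h7 := Finset.card_nsmul_le_sum (Finset.univ.erase (⟨1, one_pow u⟩ : S)) g d fun z _ => h2 z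
  rw [← Finset.add_sum_erase _ _ (Finset.mem_univ (⟨1, one_pow u⟩ : S))] at h3
  rw [Finset.card_erase_of_mem (Finset.mem_univ _), Finset.card_univ, ← Nat.card_eq_fintype_card,
    smul_eq_mul] at h7
  change (nsol (G ⧸ N) u - 1) * d ≤ _ at h7
  obtain ⟨k, hk⟩ : ∃ k, nsol (G ⧸ N) u = k + 1 := ⟨_, (Nat.succ_pred_eq_of_pos (nsol_pos u)).symm⟩
  rw [hk] at h5 h7 ⊢
  rw [Nat.add_sub_cancel] at h7
  have h8 : g ⟨1, one_pow u⟩ + k * d ≤ d * u := le_trans (Nat.add_le_add_left h7 _) h3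
  have h9 := Nat.mul_le_mul_left d h5
  refine ⟨h1, le_antisymm (Nat.le_of_mul_le_mul_left (c := d) (by nlinarith) hd) h5,
    le_antisymm (by nlinarith) h6⟩

theorem exists_of_quot [Finite G] (N : Subgroup G) [N.Normal] (hQ : FP (G ⧸ N))
    (hN : ∀ d, d ∣ Nat.card N → nsol N d = d → ∃ K : Subgroup N, Nat.card K = d) {n : ℕ}
    (hn : n ∣ Nat.card G) (hc : nsol G n = n) : ∃ H : Subgroup G, Nat.card H = n := by
  obtain ⟨d, u, v, rfl, hv, huv⟩ : ∃ d u v, n = d * u ∧ Nat.card N = d * v ∧ u.Coprime v := by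
    obtain ⟨u, v, a, b, c⟩ := Nat.exists_coprime n (Nat.card N)
    exact ⟨_, u, v, b.trans (mul_comm _ _), c.trans (mul_comm _ _), a⟩
  obtain ⟨h1, h2, h3⟩ := split N hn hv huv hc
  obtain ⟨K, hK⟩ := hN d ⟨v, hv⟩ h3
  have hK' : Nat.card (K.map N.subtype) = d := by rw [card_subtype, hK]
  rcases hQ u h1 h2 with rfl | h4
  · exact ⟨_, hK'.trans (mul_one d).symm⟩
  have hm : ∀ x : N, x ∈ K ↔ x ^ d = 1 := Set.ext_iff.1 (coe_eq_of_card h3 hK)
  have : (K.map N.subtype).Normal := ⟨by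
    rintro _ ⟨x, hx, rfl⟩ g
    refine ⟨⟨g * x * g⁻¹, Normal.conj_mem inferInstance _ x.2 g⟩, (hm _).2 (Subtype.ext ?_), rfl⟩
    change (g * x * g⁻¹) ^ d = 1
    rw [conj_pow, ← Subgroup.coe_pow, (hm x).1 hx]; simp⟩
  have hd : 0 < d := Nat.pos_of_mul_pos_right (hv ▸ Nat.card_pos)
  set N' := N.map (QuotientGroup.mk' (K.map N.subtype))
  have : N'.Normal := Normal.map inferInstance _ (QuotientGroup.mk'_surjective _)
  have h5 : Nat.card N' = v := by
    have := Grp.card_comap_mk' _ N'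
    rw [QuotientGroup.comap_map_mk', sup_eq_right.2 (map_subtype_le K), hv, hK', mul_comm] at this
    exact (Nat.eq_of_mul_eq_mul_right hd this).symm
  have h6 : N'.index = u := by
    rw [index_map_eq _ (QuotientGroup.mk'_surjective _) (by
      rw [QuotientGroup.ker_mk']; exact map_subtype_le K), h4, index_eq_card]
  obtain ⟨H, hH⟩ := exists_right_complement'_of_coprime (N := N') (by rw [h5, h6]; exact huv.symm)
  exact ⟨H.comap (QuotientGroup.mk' _), by
    rw [Grp.card_comap_mk', hK', ← hH.symm.index_eq_card, h6, mul_comm]⟩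

theorem exists_simple_quot [Finite G] [Nontrivial G] :
    ∃ (N : Subgroup G) (_ : N.Normal), N ≠ ⊤ ∧ IsSimpleGroup (G ⧸ N) := by
  obtain ⟨N, ⟨hN, hne⟩, hmax⟩ := Set.Finite.exists_maximal
    (s := {N : Subgroup G | N.Normal ∧ N ≠ ⊤}) (Set.toFinite _) ⟨⊥, inferInstance, bot_ne_top⟩
  have : Nontrivial (G ⧸ N) := QuotientGroup.nontrivial_iff.2 hne
  refine ⟨N, hN, hne, ⟨fun K hK => ?_⟩⟩
  have hs := QuotientGroup.mk'_surjective N
  rw [← map_comap_eq_self_of_surjective hs K]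
  by_cases h : K.comap (QuotientGroup.mk' N) = ⊤
  · exact Or.inr (by rw [h, map_top_of_surjective _ hs])
  · exact Or.inl ((Subgroup.map_eq_bot_iff _).2 (by
      rw [QuotientGroup.ker_mk']; exact hmax ⟨hK.comap _, h⟩ (QuotientGroup.le_comap_mk' N K)))

/-- All composition factors have the property `FP`. -/
def CF (G : Type u) [Group G] : Prop := ∀ H : Subgroup G, H.IsSubnormal →
  ∀ (Q : Type u) [Group Q] (f : H →* Q), Function.Surjective f → IsSimpleGroup Q → FP Q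

theorem exists_of_cf (G : Type u) [Group G] [Finite G] : CF G → ∀ n, n ∣ Nat.card G →
    nsol G n = n → ∃ H : Subgroup G, Nat.card H = n := by
  refine Grp.card_induction (P := fun G _ _ => CF G → ∀ n, n ∣ Nat.card G →
    nsol G n = n → ∃ H : Subgroup G, Nat.card H = n) ?_ G
  intro G _ _ ih h n hn hc
  rcases subsingleton_or_nontrivial G with h1 | h1
  · exact ⟨⊥, by rw [card_bot]; exact (Nat.dvd_one.1 (by simpa using hn)).symm⟩
  obtain ⟨N, i, hN, hs⟩ := exists_simple_quot (G := G)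
  refine exists_of_quot N (h ⊤ .top _ ((QuotientGroup.mk' N).comp (⊤ : Subgroup G).subtype)
    ((QuotientGroup.mk'_surjective N).comp fun x => ⟨⟨x, trivial⟩, rfl⟩) hs) (ih N ?_ ?_) hn hc
  · exact (card_le_card_group N).lt_of_ne fun e => hN (eq_top_of_card_eq N e)
  · intro H hH Q _ f hf hQ
    let e := H.equivMapOfInjective _ N.subtype_injective
    exact h _ (hH.trans' i.isSubnormal) Q (f.comp e.symm.toMonoidHom) (hf.comp e.symm.surjective) hQ

end Cfsg.Agent.FC
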