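import Cfsg.Agent.FC.CA7
import Cfsg.Agent.FC.CM11
import Cfsg.Agent.FC.CU33
import Cfsg.Agent.FC.CL33
import Cfsg.Agent.Char.M11Ord5
import Cfsg.Agent.Class.FieldTransport

/-! The Frobenius conjecture for `A₇`, `M₁₁`, `U₃(3)` and `L₃(3)`. -/

set_option autoImplicit false

namespace Cfsg.Agent.FC

open Cfsg
open scoped MatrixGroups

theorem fp_A7 : FP (alternatingGroup (Fin 7)) :=
  Spor.ModelA7.iso.elim fun e => CA7.fp.equiv (e.symm.trans (MulEquiv.subgroupCongr CA7.geq))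

theorem fp_M11 {G : Type*} [Group G] [Finite G] (h : IsM11 G) : FP G :=
  haveI := h.1
  (Char.M11Ord.isoM11 h.2).elim fun e =>
    CM11.fp.equiv (e.trans (Spor.ModelM11.equiv.trans (MulEquiv.subgroupCongr CM11.geq)))

theorem fp_U33 {F : Type} [Field F] [Fintype F] (h : Fintype.card F = 9) : FP (PSU 3 F 3) :=
  CU33.fp.equiv ((Class.psuCongr 3 3 (Class.ringEquivGF9 h)).trans (Spor.ModelU33.equiv.trans
    (MulEquiv.subgroupCongr (Spor.ModelU33.G_eq.trans CU33.geq))))

theorem fp_L33 {F : Type} [Field F] [Fintype F] (h : Fintype.card F = 3) : FP PSL(3, F) :=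
  haveI : Fact (Nat.Prime 3) := ⟨Nat.prime_three⟩
  CL33.fp.equiv ((Class.pslCongr _ (FiniteField.ringEquivOfCardEq (by rw [h, ZMod.card]))).trans
    (ModelL33.equiv.trans (MulEquiv.subgroupCongr CL33.geq)))

end Cfsg.Agent.FC
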