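import Cfsg.Agent.FC.Hall
import Cfsg.Agent.Perm.ZassSharp3
import Cfsg.Agent.Perm.ZassPrime
import Cfsg.Agent.Perm.ZassKer
import Cfsg.Agent.Class.PGL2Action

/-! The Frobenius conjecture for simple Zassenhaus groups. -/

set_option autoImplicit false

namespace Cfsg.Agent.FC

open Subgroup MulAction Cfsg Cfsg.Agent.Perm Cfsg.Agent.Perm.Zass

variable {G Ω : Type*} [Group G] [MulAction G Ω]

theorem gcd_le [Finite G] (K : Subgroup G) (n : ℕ) (T : Finset G)
    (hT : ∀ x ∈ K, x ^ n = 1 → x ≠ 1 → x ∈ T) : n.gcd (Nat.card K) - 1 ≤ T.card := by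
  classical
  have h1 := le_nsol (G := K) (Nat.gcd_dvd_right n _)
  have h2 : nsol K (n.gcd (Nat.card K)) ≤ Nat.card (insert 1 T : Finset G) :=
    Nat.card_le_card_of_injective (fun x => ⟨x.1.1, by
      by_cases h : x.1.1 = 1
      · rw [h]; exact Finset.mem_insert_self _ _
      · exact Finset.mem_insert_of_mem (hT _ x.1.2 (by
          rw [← Subgroup.coe_pow, pow_gcd_eq_one.1 x.2 |>.1, OneMemClass.coe_one]) h)⟩)
      fun x y h => Subtype.ext (Subtype.ext (by simpa using h))
  rw [Nat.card_eq_finsetCard] at h2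
  have h3 := Finset.card_insert_le 1 T
  omega

theorem card_dvd_of_free (C : Subgroup G) (h : ∀ y ∈ C, ∀ c : Ω, y • c = c → y = 1) :
    Nat.card C ∣ Nat.card Ω := by
  rw [Nat.card_congr (selfEquivOrbitsQuotientProd (G := C) (X := Ω) fun c =>
    eq_bot_iff.2 fun y hy => Subtype.ext (h y y.2 c hy)), Nat.card_prod]
  exact Dvd.intro_left _ rfl

theorem eq_of_mem_zpowers {u z : G} (h : orderOf u = 2) (hz : z ∈ zpowers u) : z = 1 ∨ z = u := by
  obtain ⟨n, rfl⟩ := hz
  have h2 : u ^ (2 : ℤ) = 1 := by exact_mod_cast h ▸ pow_orderOf_eq_one u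
  rcases Int.even_or_odd n with ⟨m, rfl⟩ | ⟨m, rfl⟩
  · left; simp only [← two_mul, zpow_mul, h2, one_zpow]
  · right; simp only [zpow_add, zpow_mul, h2, one_zpow, zpow_one, one_mul]

theorem zass_num {N a u b c n D : ℕ} (hN : 2 ≤ N) (ha : 2 ≤ a) (hu : u ∣ N) (hb : b ∣ N + 1)
    (hc : 0 < c) (h0 : 0 < n) (h1 : n ≤ c * u * b) (h2 : n ≤ a * N * (N + 1))
    (h3 : 2 + 2 * ((N + 1) * (u - 1)) + (N + 1) * N * (c - 1) + 2 * D ≤ 2 * n)
    (h4 : b = N + 1 → 2 * D + N * (N - 1) = a * N * (N + 1)) (h5 : c = 1 → b ≠ 1 → a * N ≤ D)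
    (h6 : c ≤ a) : n = 1 ∨ n = a * N * (N + 1) := by
  have key : ∀ {x y : ℕ}, x ∣ y → 0 < y → x = y ∨ 2 * x ≤ y := fun {x y} ⟨k, hk⟩ hy => by
    rcases k with _ | _ | k
    · omega
    · omega
    · right; nlinarith
  obtain ⟨c, rfl⟩ : ∃ k, c = k + 1 := ⟨c - 1, by omega⟩
  obtain ⟨u, rfl⟩ : ∃ k, u = k + 1 := ⟨u - 1, by have := Nat.pos_of_dvd_of_pos hu (by omega); omega⟩
  obtain ⟨N, rfl⟩ : ∃ k, N = k + 1 := ⟨N - 1, by omega⟩
  simp only [Nat.add_sub_cancel] at h3 h4
  rcases key hb (by omega) with rfl | hb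
  · have h7 := h4 rfl
    rcases key hu (by omega) with hu | hu
    · obtain rfl : u = N := by omega
      right
      have h8 : a ≤ c + 1 := Nat.le_of_mul_le_mul_right (c := (u + 1) * (u + 1 + 1))
        (by nlinarith) (by positivity)
      obtain rfl : a = c + 1 := by omega
      nlinarith
    · have h8 := Nat.mul_le_mul_left ((c + 1) * (N + 1 + 1)) hu
      have h9 := Nat.mul_le_mul_right ((N + 1) * (N + 1 + 1)) ha
      nlinarith
  · have h7 := Nat.mul_le_mul_left ((c + 1) * (u + 1)) hb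
    rcases key hu (by omega) with hu | hu
    · obtain rfl : u = N := by omega
      nlinarith
    · have h8 := Nat.mul_le_mul_left (c * (N + 1 + 1)) hu
      have h9 : 2 * u + 2 * (u + 1) * c < (c + 1) * (u + 1) :=
        Nat.lt_of_mul_lt_mul_right (a := N + 1 + 1) (by nlinarith)
      obtain rfl : c = 0 := by nlinarith
      obtain rfl : u = 0 := by omega
      by_cases h10 : b = 1
      · left; subst h10; omega
      · have := h5 rfl h10
        nlinarith

theorem swap_order (hZ : IsZassenhausGroup G Ω) [Finite Ω] [IsSimpleGroup G] {a b : Ω} (hab : a ≠ b)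
    {s : G} (ha : s • a = b) (hb : s • b = a) : orderOf s = 2 := by
  rcases Nat.even_or_odd (Nat.card ↥(stabilizer G a ⊓ stabilizer G b)) with h | h
  · exact ZassPSL.orderOf_swap_of_even hZ hab h (ZassPSL.two_mul_card_of_simple hZ hab h).le ha hb
  · exact orderOf_swap_of_inverts hab h (two_structure_of_simple hZ hab h).2 ha hb

theorem swap_of_comm (hZ : IsZassenhausGroup G Ω) {x y : G} (hx : ∀ c : Ω, x • c ≠ c)
    (h : y * x = x * y) (hy : y ≠ 1) {c : Ω} (hc : y • c = c) :
    y • x • c = x • c ∧ x • x • c = c := by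
  have h1 : ∀ d : Ω, y • d = d → y • x • d = x • d := fun d hd => by rw [smul_smul, h, mul_smul, hd]
  exact ⟨h1 c hc, ((fix_iff hZ hy (hx c).symm hc (h1 c hc) _).1 (h1 _ (h1 c hc))).resolve_right (hx _)⟩

theorem fp_of_zass (hZ : IsZassenhausGroup G Ω) [Finite Ω] [IsSimpleGroup G] : FP G := by
  classical
  have := finite_of_finite hZ
  have := Fintype.ofFinite G
  have := Fintype.ofFinite Ω
  obtain ⟨a, b, hab⟩ := exists_pair hZ
  obtain ⟨N, hN⟩ : ∃ N, Nat.card Ω = N + 1 := ⟨Nat.card Ω - 1, by have := four_le_card hZ; omega⟩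
  have hG := card_eq hZ hab
  have hf := card_fpf hZ
  have h4 := four_le_card hZ
  have h2 := two_le_card_two hZ hab
  have hK := fun {c d : Ω} (h : c ≠ d) => card_two_eq hZ h hab
  generalize Nat.card ↥(stabilizer G a ⊓ stabilizer G b) = e at hG h2 hK
  rw [hN, Nat.add_sub_cancel] at hG hf
  intro n hn hc
  have h0 : 0 < n := hc ▸ nsol_pos n
  let A0 := Finset.univ.filter fun x : G => x ^ n = 1 ∧ ∀ c : Ω, x • c ≠ c
  let A1 := Finset.univ.filter fun x : G => x ^ n = 1 ∧ x ≠ 1 ∧ ∃ c : Ω, ∀ d, x • d = d ↔ d = c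
  let A2 := Finset.univ.filter fun x : G =>
    x ^ n = 1 ∧ x ≠ 1 ∧ ∃ c d : Ω, c ≠ d ∧ x • c = c ∧ x • d = d
  have c1 : (N + 1) * (n.gcd N - 1) ≤ A1.card * 1 := by
    rw [← hN, Nat.card_eq_fintype_card, ← Finset.card_univ]
    refine Finset.card_mul_le_card_mul (fun c x => x • c = c) (fun c _ => ?_) fun x hx => ?_
    · obtain ⟨H, hH⟩ := exists_isKer hZ c
      have := gcd_le H n (A1.bipartiteAbove (fun c x => x • c = c) c) fun x h1 h2 h3 => by
        simp only [A1, Finset.mem_bipartiteAbove, Finset.mem_filter, Finset.mem_univ, true_and]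
        exact ⟨⟨h2, h3, c, fun d => hH.fix_iff h1 h3⟩, hH.le h1⟩
      rwa [hH.card hZ, hN, Nat.add_sub_cancel] at this
    · obtain ⟨-, -, -, c, hc⟩ := Finset.mem_filter.1 hx
      exact Finset.card_le_one.2 fun d hd f hf => ((hc d).1 (Finset.mem_filter.1 hd).2).trans
        ((hc f).1 (Finset.mem_filter.1 hf).2).symm
  have c2 : (N + 1) * N * (n.gcd e - 1) ≤ A2.card * 2 := by
    have : (N + 1) * N = (Finset.univ : Finset Ω).offDiag.card := by
      rw [Finset.offDiag_card, Finset.card_univ, ← Nat.card_eq_fintype_card, hN]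
      exact eq_tsub_of_add_eq (by ring)
    rw [this]
    refine Finset.card_mul_le_card_mul (fun p x => x • p.1 = p.1 ∧ x • p.2 = p.2)
      (fun p hp => ?_) fun x hx => ?_
    · have hp := (Finset.mem_offDiag.1 hp).2.2
      rw [← hK hp]
      refine gcd_le _ n _ fun x h1 h2 h3 => ?_
      simp only [A2, Finset.mem_bipartiteAbove, Finset.mem_filter, Finset.mem_univ, true_and]
      exact ⟨⟨h2, h3, _, _, hp, h1⟩, h1⟩
    · obtain ⟨-, -, h1, c, d, h2, h3, h4⟩ := Finset.mem_filter.1 hx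
      refine (Finset.card_le_card (t := {(c, d), (d, c)}) fun p hp => ?_).trans Finset.card_le_two
      obtain ⟨h5, h6, h7⟩ := Finset.mem_filter.1 hp
      have h5 := (Finset.mem_offDiag.1 h5).2.2
      rw [fix_iff hZ h1 h2 h3 h4] at h6 h7
      simp only [Finset.mem_insert, Finset.mem_singleton, Prod.ext_iff]
      grind
  have c3 : 1 + A1.card + A2.card + A0.card ≤ n := by
    rw [← Finset.card_singleton (1 : G), ← Finset.card_union_of_disjoint,
      ← Finset.card_union_of_disjoint, ← Finset.card_union_of_disjoint]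
    · refine le_trans ?_ hc.le
      rw [nsol, Nat.card_eq_fintype_card, Fintype.card_subtype]
      refine Finset.card_le_card fun x hx => ?_
      simp only [A0, A1, A2, Finset.mem_union, Finset.mem_singleton, Finset.mem_filter,
        Finset.mem_univ, true_and] at hx ⊢
      rcases hx with ((rfl | h) | h) | h
      exacts [one_pow n, h.1, h.1, h.1]
    all_goals
      rw [Finset.disjoint_left]
      simp only [A0, A1, A2, Finset.mem_union, Finset.mem_singleton, Finset.mem_filter,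
        Finset.mem_univ, true_and]
    · rintro x ((rfl | ⟨-, -, c, h⟩) | ⟨-, -, c, -, -, h, -⟩) ⟨-, h'⟩
      exacts [h' a (one_smul _ _), h' c ((h c).2 rfl), h' c h]
    · rintro x (rfl | ⟨-, -, c, h⟩) ⟨-, h1, d, f, h2, h3, h4⟩
      exacts [h1 rfl, h2 (((h d).1 h3).trans ((h f).1 h4).symm)]
    · rintro x rfl h
      exact h.2.1 rfl
  rw [hG] at hn ⊢
  refine zass_num (u := n.gcd N) (b := n.gcd (N + 1)) (c := n.gcd e) (D := A0.card) (by omega) h2
    (Nat.gcd_dvd_right _ _) (Nat.gcd_dvd_right _ _) (Nat.gcd_pos_of_pos_left _ h0) h0 ?_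
    (Nat.le_of_dvd (hG ▸ Nat.card_pos) hn) (by omega) (fun h => ?_) (fun h h' => ?_)
    (Nat.gcd_le_right _ (by omega))
  · refine Nat.le_of_dvd (by have := fun m => Nat.gcd_pos_of_pos_left m h0; positivity) ?_
    exact (Nat.gcd_eq_left hn).symm.dvd.trans ((gcd_mul_dvd_mul_gcd n _ _).trans
      (Nat.mul_dvd_mul_right (gcd_mul_dvd_mul_gcd n _ _) _))
  · rw [← hG, ← hf, Nat.card_eq_fintype_card, Fintype.card_subtype, show N + 1 - 2 = N - 1 by omega]
    congr 3
    refine Finset.filter_congr fun x _ => and_iff_right_of_imp fun hx => ?_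
    refine orderOf_dvd_iff_pow_eq_one.1 (.trans ?_ (h ▸ Nat.gcd_dvd_left n (N + 1)))
    rw [← Nat.card_zpowers, ← hN]
    refine card_dvd_of_free _ fun y hy c hc => by_contra fun h1 => ?_
    have h2 := swap_of_comm hZ hx (by
      obtain ⟨k, rfl⟩ := hy; exact (Commute.zpow_self x k).eq) h1 hc
    rcases eq_of_mem_zpowers (swap_order hZ (hx c).symm rfl h2.2) hy with rfl | rfl
    exacts [h1 rfl, hx c hc]
  · obtain ⟨r, hr, h1⟩ := Nat.exists_prime_and_dvd h'
    have := Fact.mk hr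
    have h3 := h1.trans (Nat.gcd_dvd_left _ _)
    have h5 : ¬ r ∣ e := fun h4 => hr.not_dvd_one (h ▸ Nat.dvd_gcd h3 h4)
    obtain ⟨x, hx⟩ := exists_prime_orderOf_dvd_card' (G := G) r (h3.trans (hG ▸ hn))
    have h6 : ∀ c : Ω, x • c ≠ c := fun c hc => by
      obtain ⟨d, hd⟩ := exists_ne hZ c
      have h7 := (stabilizer G c).orderOf_dvd_natCard hc
      rw [card_stabilizer hZ hd, hK hd, hN, Nat.add_sub_cancel, hx, hr.dvd_mul] at h7
      exact hr.not_dvd_one ((Nat.dvd_add_right (h7.resolve_left h5)).1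
        (h1.trans (Nat.gcd_dvd_right _ _)))
    have h7 := card_dvd_of_free (Ω := Ω) (centralizer {x}) fun y hy c hc => by_contra fun h7 => by
      have h8 := mem_centralizer_singleton_iff.1 hy
      have h9 := swap_of_comm hZ h6 h8 h7 hc
      have h10 := swap_order hZ (h6 c).symm rfl h9.2
      have h11 := swap_order hZ (s := x * y) (h6 c).symm (by rw [mul_smul, hc])
        (by rw [mul_smul, h9.1, h9.2])
      have h12 : y ^ 2 = 1 := by
        have := pow_orderOf_eq_one (x * y)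
        rwa [h11, (show Commute x y from h8.symm).mul_pow, ← h10, pow_orderOf_eq_one, one_mul,
          h10] at this
      have h13 := (stabilizer G c ⊓ stabilizer G (x • c)).orderOf_dvd_natCard (x := y) ⟨hc, h9.1⟩
      rw [hK (h6 c).symm, orderOf_eq_prime h12 h7, ← h10, hx] at h13
      exact h5 h13
    have h8 := card_le_card_mul_centralizer ⊤ x (fun t => t ^ n = 1 ∧ ∀ c : Ω, t • c ≠ c)
      fun g _ => ⟨by rw [conj_pow, orderOf_dvd_iff_pow_eq_one.1 (hx ▸ h3)]; simp, fun c hc =>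
        h6 (g⁻¹ • c) (by rwa [mul_smul, mul_smul, smul_eq_iff_eq_inv_smul] at hc)⟩
    rw [card_top, hG, Nat.card_eq_fintype_card, Fintype.card_subtype] at h8
    exact Nat.le_of_mul_le_mul_right (h8.trans (Nat.mul_le_mul_left _
      (hN ▸ Nat.le_of_dvd (by omega) h7))) (by omega)

open scoped MatrixGroups LinearAlgebra.Projectivization in
open _root_.Cfsg.Agent.Class in
theorem fp_PSL2 {F : Type*} [Field F] [Fintype F] (h : 4 ≤ Fintype.card F) : FP PSL(2, F) := by
  classical
  have : IsSimpleGroup PSL(2, F) := Matrix.ProjectiveSpecialLinearGroup.rank_two_simple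
    (by rwa [Nat.card_eq_fintype_card])
  obtain ⟨l, h0, h1, h2⟩ : ∃ l : F, l ≠ 0 ∧ l ≠ 1 ∧ l ≠ -1 := by
    obtain ⟨l, -, hl⟩ := Finset.exists_mem_notMem_of_card_lt_card (s := ({0, 1, -1} : Finset F))
      (t := Finset.univ) (Finset.card_le_three.trans_lt h)
    exact ⟨l, by simpa using hl⟩
  refine fp_of_zass (Ω := ℙ F (Fin 2 → F)) (ZassPSL.isZassenhaus_of_simple inferInstance ?_ ?_
    (pointE1_eq_pointAff (F := F) ▸ pointE0_ne_pointAff 0) fun e => ?_)
  · have : IsMultiplyPretransitive SL(2, F) (ℙ F (Fin 2 → F)) 2 := inferInstance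
    rw [is_two_pretransitive_iff] at this ⊢
    intro a b c d h1 h2
    obtain ⟨g, h3, h4⟩ := this h1 h2
    exact ⟨(g : PSL(2, F)), h3, h4⟩
  · intro g x y z a b c d e f
    obtain ⟨g, rfl⟩ := QuotientGroup.mk_surjective g
    have := mem_center_of_fix_three (Matrix.SpecialLinearGroup.toGL g) a c b
      ((toGL_smul_point _ _).trans d) ((toGL_smul_point _ _).trans e) ((toGL_smul_point _ _).trans f)
    exact (QuotientGroup.eq_one_iff _).2 (mem_center_iff.2 fun k =>
      Matrix.SpecialLinearGroup.toGL_injective (by rw [map_mul, map_mul, mem_center_iff.1 this]))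
  · let g : SL(2, F) := ⟨!![l, 0; 0, l⁻¹], by simp [Matrix.det_fin_two, h0]⟩
    have h3 : (g : PSL(2, F)) = 1 := mem_bot.1 (e ▸ ⟨(toGL_smul_point g _).symm.trans
      ((GL2_smul_pointE0_iff _).2 rfl), (toGL_smul_point g _).symm.trans
      ((GL2_smul_pointE1_iff _).2 rfl)⟩)
    have h4 : Matrix.SpecialLinearGroup.toGL g • pointAff (1 : F) = pointAff 1 := by
      rw [toGL_smul_point, ← Matrix.ProjectiveSpecialLinearGroup.smul_proj_mk, h3, one_smul]
    rw [GL2_smul_pointAff_iff] at h4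
    have h5 : l = l⁻¹ := by simpa using (show l * 1 + 0 = (0 * 1 + l⁻¹) * 1 from h4)
    rcases (mul_self_eq_one_iff (a := l)).1 (by nth_rw 1 [h5]; exact inv_mul_cancel₀ h0) with h | h
    exacts [h1 h, h2 h]

end Cfsg.Agent.FC
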